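import Cfsg.Agent.H635.SporU

/-!
# The inertial index of a principal block

* `dvd_e` : an element normalizing a subgroup of order `l` and acting on it with order `m` gives `m ∣ e`.
-/

set_option autoImplicit false
set_option linter.unusedSectionVars false

namespace Cfsg.Agent.H635.Spor

open Cfsg Cfsg.Agent.Characters.Core Cfsg.Agent.SmallSimple.DegreeData Subgroup

universe u

variable {S : Type u} [Group S]

/-- the centralizer is normal in the normalizer -/
theorem centralizer_normal (P : Subgroup S) :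
    ((centralizer (P : Set S)).subgroupOf (normalizer (P : Set S))).Normal := by
  refine ⟨fun n hn g => ?_⟩
  rw [mem_subgroupOf, mem_centralizer_iff] at hn ⊢
  intro x hx
  have hg := (mem_normalizer_iff.1 (inv_mem g.2) x).1 hx
  have h1 := hn _ hg
  have h2 : ((g : S) * (((g : S)⁻¹ * x * ((g : S)⁻¹)⁻¹) * (n : S)) * (g : S)⁻¹) =
      (g : S) * ((n : S) * ((g : S)⁻¹ * x * ((g : S)⁻¹)⁻¹)) * (g : S)⁻¹ := by
    rw [h1]
  have h3 : x * ((g : S) * (n : S) * (g : S)⁻¹) =
      ((g : S) * (((g : S)⁻¹ * x * ((g : S)⁻¹)⁻¹) * (n : S)) * (g : S)⁻¹) := by group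
  have h4 : ((g : S) * (n : S) * (g : S)⁻¹) * x =
      (g : S) * ((n : S) * ((g : S)⁻¹ * x * ((g : S)⁻¹)⁻¹)) * (g : S)⁻¹ := by group
  show x * ((g : S) * (n : S) * (g : S)⁻¹) = ((g : S) * (n : S) * (g : S)⁻¹) * x
  rw [h3, h4, h2]

/-- The relative index for an element acting on a subgroup of prime order. -/
theorem dvd_relIndex {l : ℕ} [hl : Fact l.Prime] (P : Sylow l S) (hP : Nat.card P = l) {z g : S} {k m : ℕ}
    (hz : z ∈ P) (hz1 : orderOf z = l) (hg : g * z * g⁻¹ = z ^ k) (hm : orderOf (k : ZMod l) = m) :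
    m ∣ (centralizer (P : Set S)).relIndex (normalizer (P : Set S)) := by
  have hPz : (P : Subgroup S) = zpowers z := by
    have hle : zpowers z ≤ (P : Subgroup S) := zpowers_le.2 hz
    have hfin : Finite P := Nat.finite_of_card_ne_zero (by rw [hP]; exact hl.out.ne_zero)
    exact (Subgroup.eq_of_le_of_card_ge hle (by rw [Nat.card_zpowers, hz1]; exact hP.le)).symm
  by_cases hk0 : (k : ZMod l) = 0
  · -- then `z = 1`
    exfalso
    have h1 : z ^ k = 1 := by
      rw [← orderOf_dvd_iff_pow_eq_one, hz1]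
      exact (ZMod.natCast_eq_zero_iff k l).1 hk0
    rw [h1] at hg
    have h2 : z = 1 := conj_eq_one_iff.1 hg
    rw [h2, orderOf_one] at hz1
    exact hl.out.one_lt.ne hz1
  have hkn : ∀ n : ℕ, g ^ n * z * (g ^ n)⁻¹ = z ^ (k ^ n) := by
    intro n
    induction n with
    | zero => simp
    | succ n ih =>
      have h1 : g ^ (n + 1) * z * (g ^ (n + 1))⁻¹ = g ^ n * (g * z * g⁻¹) * (g ^ n)⁻¹ := by
        rw [pow_succ]; group
      rw [h1, hg]
      have h2 : g ^ n * z ^ k * (g ^ n)⁻¹ = (g ^ n * z * (g ^ n)⁻¹) ^ k := conj_pow.symm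
      rw [h2, ih, ← pow_mul, pow_succ]
  have hgN : g ∈ normalizer (P : Set S) := by
    have hfin : Finite P := Nat.finite_of_card_ne_zero (by rw [hP]; exact hl.out.ne_zero)
    have hmem : ∀ x ∈ P, g * x * g⁻¹ ∈ P := by
      intro x hx
      have hx' : x ∈ (P : Subgroup S) := hx
      rw [hPz, mem_zpowers_iff] at hx'
      obtain ⟨i, rfl⟩ := hx'
      have h1 : g * z ^ i * g⁻¹ = (z ^ k) ^ i := by rw [← hg]; exact (conj_zpow).symm
      rw [h1]
      exact zpow_mem (pow_mem hz k) i
    have hfix : ((MulAut.conj g).toMonoidHom.comp (P : Subgroup S).subtype).range ≤ (P : Subgroup S) := by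
      rintro _ ⟨x, rfl⟩
      exact hmem x x.2
    refine (mem_normalizer_iff (H := (P : Subgroup S))).2 fun x => ⟨hmem x, fun hx => ?_⟩
    -- injective self map of a finite set
    let f : P → P := fun y => ⟨g * y * g⁻¹, hmem y y.2⟩
    have hf : Function.Injective f := by
      intro a b hab
      have h1 : g * (a : S) * g⁻¹ = g * (b : S) * g⁻¹ := congrArg Subtype.val hab
      exact Subtype.ext (mul_left_cancel (mul_right_cancel h1))
    obtain ⟨y, hy⟩ := (Finite.injective_iff_surjective.1 hf) ⟨g * x * g⁻¹, hx⟩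
    have h1 : g * (y : S) * g⁻¹ = g * x * g⁻¹ := congrArg Subtype.val hy
    rw [← mul_left_cancel (mul_right_cancel h1)]
    exact y.2
  let N := normalizer (P : Set S)
  let C : Subgroup N := (centralizer (P : Set S)).subgroupOf N
  have hC : C.Normal := centralizer_normal (P : Subgroup S)
  let q : N ⧸ C := QuotientGroup.mk' C ⟨g, hgN⟩
  have h1 : m ∣ orderOf q := by
    rw [← hm, orderOf_dvd_iff_pow_eq_one]
    have h2 : (⟨g, hgN⟩ : N) ^ orderOf q ∈ C := by
      have h3 : QuotientGroup.mk' C ((⟨g, hgN⟩ : N) ^ orderOf q) = 1 := by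
        rw [map_pow]; exact pow_orderOf_eq_one q
      exact (QuotientGroup.eq_one_iff _).1 h3
    rw [mem_subgroupOf, mem_centralizer_iff] at h2
    have h3 : z * g ^ orderOf q = g ^ orderOf q * z := h2 z hz
    have h4 : g ^ orderOf q * z * (g ^ orderOf q)⁻¹ = z := by rw [← h3, mul_inv_cancel_right]
    rw [hkn] at h4
    have h5 : z ^ (k ^ orderOf q) = z ^ 1 := by rw [h4, pow_one]
    rw [pow_eq_pow_iff_modEq, hz1] at h5
    have h6 : ((k ^ orderOf q : ℕ) : ZMod l) = ((1 : ℕ) : ZMod l) := (ZMod.natCast_eq_natCast_iff _ _ _).2 h5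
    push_cast at h6
    exact h6
  refine h1.trans ?_
  show orderOf q ∣ C.index
  rw [index_eq_card]
  exact orderOf_dvd_natCard q

variable [Finite S]

theorem dvd_e {l : ℕ} [hl : Fact l.Prime] (K : Blk l S) {z g : S} {k m : ℕ} (hz1 : orderOf z = l)
    (hg : g * z * g⁻¹ = z ^ k) (hm : orderOf (k : ZMod l) = m) : m ∣ K.e := by
  obtain ⟨h, hh⟩ := exists_conj_mem K.P hz1
  rw [← K.he]
  refine dvd_relIndex K.P K.hP (z := h * z * h⁻¹) (g := h * g * h⁻¹) hh ?_ ?_ hm
  · rw [← hz1]
    exact (MulAut.conj h).orderOf_eq z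
  · rw [conj_pow, ← hg]
    group

end Cfsg.Agent.H635.Spor
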