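import Cfsg.Agent.H635.SporFast

/-!
# The fast sieve for groups without outer automorphisms
-/

set_option autoImplicit false
set_option linter.unusedSectionVars false

namespace Cfsg.Agent.H635.Spor

open Cfsg Cfsg.Agent.Characters.Core Cfsg.Agent.SmallSimple.DegreeData Subgroup

universe u

variable {S : Type u} [Group S]

/-- cutting the computation in pieces -/
theorem pw_of_forall {N q : ℕ} {g : ℕ → Bool} : ∀ {a acc : ℕ}, (∀ i ≤ a, g (acc * q ^ i) = true) → pw N q g a acc = true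
  | 0, acc, h => by
    have := h 0 le_rfl
    rwa [pow_zero, mul_one] at this
  | a + 1, acc, h => by
    rw [pw, Bool.and_eq_true, force_eq]
    refine ⟨by simpa using h 0 (Nat.zero_le _), ?_⟩
    rw [Bool.or_eq_true]
    refine Or.inr (pw_of_forall fun i hi => ?_)
    have h1 := h (i + 1) (by omega)
    rwa [show acc * q ^ (i + 1) = Nat.mul acc q * q ^ i from by rw [Nat.mul_eq]; ring] at h1

theorem allF_of_forall {N q a acc : ℕ} {f : ℕ → Bool} {L : List (ℕ × ℕ)} (h : ∀ i ≤ a, allF N f L (acc * q ^ i) = true) :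
    allF N f ((q, a) :: L) acc = true :=
  pw_of_forall h

/-- **The fast sieve, `Out = 1`**, with possible survivors and information on the inertial indices. -/
theorem flat_of_sieve (h : Hyp S) (hO : Nat.card (Cfsg.Out S) = 1) {p : ℕ} (hp : p.Prime) (hp2 : 2 < p)
    (F : List (ℕ × ℕ)) (N : ℕ) (hN : Nat.card S = N) (hFN : val F = N) (hFp : ∀ x ∈ F, x.1.Prime)
    (hFe : exact F N = true) (tb : List TRow) (hls : ∀ x ∈ tb, x.l.Prime ∧ x.l ≠ 2 ∧ x.l ∣ N ∧ ¬ x.l ^ 2 ∣ N)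
    (hes : ∀ x ∈ tb, ∀ [Fact x.l.Prime] [Finite S] (K : Blk x.l S), ∃ es : List ℕ, K.e ∈ es ∧ x.ok es = true)
    (surv : List ℕ) (hc : allF N (tstF p tb surv) (bnd p F) 1 = true) (hng : ¬ H687.Good p S) :
    ∃ d ∈ surv, Flat p d S := by
  obtain ⟨d, hd⟩ := flat_of_not_good h hO hp hp2.ne' hng
  exact ⟨d, hd.mem_surv' h hp hp2 F N hN hFN hFp hFe tb hls hes surv hc, hd⟩

/-- **The fast sieve, `Out = 1`**, no information on the inertial indices, no survivors. -/
theorem good_of_sieveF (h : Hyp S) (hO : Nat.card (Cfsg.Out S) = 1) {p : ℕ} (hp : p.Prime) (hp2 : 2 < p)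
    (F : List (ℕ × ℕ)) (N : ℕ) (hN : Nat.card S = N) (hFN : val F = N) (hFp : ∀ x ∈ F, x.1.Prime)
    (hFe : exact F N = true) (tb : List TRow) (hls : ∀ x ∈ tb, x.l.Prime ∧ x.l ≠ 2 ∧ x.l ∣ N ∧ ¬ x.l ^ 2 ∣ N)
    (hes : ∀ x ∈ tb, x.ok (dvs x.l) = true)
    (hc : allF N (tstF p tb []) (bnd p F) 1 = true) : H687.Good p S := by
  by_contra hng
  obtain ⟨d, hd, -⟩ := flat_of_sieve h hO hp hp2 F N hN hFN hFp hFe tb hls
    (fun x hx _ _ K => ⟨_, mem_of_dvs h rfl K, hes x hx⟩) [] hc hng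
  simp at hd

end Cfsg.Agent.H635.Spor
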